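import Mathlib
import Cfsg.Agent.Lib.H60.AltPres

/-! Coxeter presentation of the symmetric groups. -/

set_option autoImplicit false
set_option maxHeartbeats 400000

namespace H16.Cox
open Equiv

structure Rel {G : Type*} [Group G] (x : ℕ → G) (k : ℕ) : Prop where
  h1 : ∀ i, i < k → x i * x i = 1
  h2 : ∀ i, i + 1 < k → x i * x (i + 1) * x i = x (i + 1) * x i * x (i + 1)
  h3 : ∀ i j, i + 1 < j → j < k → x i * x j = x j * x i

theorem bound {G : Type*} [Group G] (x : ℕ → G) (k : ℕ) (h : Rel x k) :
    Finite (Subgroup.closure (x '' {i | i < k})) ∧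
      Nat.card (Subgroup.closure (x '' {i | i < k})) ≤ (k + 1).factorial := by
  induction k with
  | zero =>
    have : x '' {i | i < 0} = ∅ := by simp
    rw [this, Subgroup.closure_empty]
    exact ⟨inferInstance, by simp⟩
  | succ k ih =>
    have hrel : Rel x k := ⟨fun i hi => h.h1 i (by omega), fun i hi => h.h2 i (by omega),
      fun i j hi hj => h.h3 i j hi (by omega)⟩
    obtain ⟨hfinH, hcardH⟩ := ih hrel
    set H := Subgroup.closure (x '' {i | i < k}) with hHdef
    have hxH : ∀ i, i < k → x i ∈ H := fun i hi => Subgroup.subset_closure ⟨i, hi, rfl⟩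
    -- p j = x j x (j+1) ... x k H
    let c : ℕ → G := fun m => Nat.rec 1 (fun m g => x (k - m) * g) m
    have hc0 : c 0 = 1 := rfl
    have hcs : ∀ m, c (m + 1) = x (k - m) * c m := fun m => rfl
    let p : ℕ → G ⧸ H := fun j => (QuotientGroup.mk (c (k + 1 - j)) : G ⧸ H)
    have hptop : p (k + 1) = ((1 : G) : G ⧸ H) := by
      simp only [p, Nat.sub_self, hc0]
    have hprec : ∀ j, j ≤ k → x j • p (j + 1) = p j := by
      intro j hj
      simp only [p]
      have e1 : k + 1 - j = (k + 1 - (j + 1)) + 1 := by omega
      rw [e1, hcs]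
      have e2 : k - (k + 1 - (j + 1)) = j := by omega
      rw [e2]; rfl
    clear_value p
    have hinv : ∀ i, i < k + 1 → ∀ y : G ⧸ H, x i • x i • y = y := by
      intro i h2 y
      rw [← mul_smul, h.h1 i h2, one_smul]
    have hcom : ∀ i j, i + 1 < j → j < k + 1 → ∀ y : G ⧸ H, x i • x j • y = x j • x i • y := by
      intro i j h2 h3 y
      rw [← mul_smul, h.h3 i j h2 h3, mul_smul]
    have hup : ∀ i j, i < j → j ≤ k → x i • p (j + 1) = p (j + 1) := by
      intro i j hij hjk
      obtain ⟨d, hd⟩ := Nat.exists_eq_add_of_le hjk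
      induction d generalizing j with
      | zero =>
        have : j = k := by omega
        rw [this, hptop]
        have h5 : x i ∈ H := hxH i (by omega)
        show (QuotientGroup.mk (x i * 1) : G ⧸ H) = QuotientGroup.mk 1
        rw [mul_one, QuotientGroup.eq]
        simpa using H.inv_mem h5
      | succ d ihd =>
        have h5 := ihd (j + 1) (by omega) (by omega) (by omega)
        rw [← hprec (j + 1) (by omega), hcom i (j + 1) (by omega) (by omega), h5]
    have hdn : ∀ i j, j < i → i ≤ k → x i • p j = p j := by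
      intro i j hji hik
      obtain ⟨d, hd⟩ := Nat.exists_eq_add_of_lt hji
      induction d generalizing j with
      | zero =>
        have hij : i = j + 1 := by omega
        subst hij
        rw [← hprec j (by omega), ← hprec (j + 1) (by omega)]
        have h5 : ∀ y : G ⧸ H, x (j + 1) • x j • x (j + 1) • y = x j • x (j + 1) • x j • y := by
          intro y
          rw [← mul_smul, ← mul_smul, ← mul_smul, ← mul_smul, h.h2 j (by omega)]
        rw [h5, hup j (j + 1) (by omega) (by omega)]
      | succ d ihd =>
        have h5 := ihd (j + 1) (by omega) (by omega)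
        rw [← hprec j (by omega), ← hcom j i (by omega) (by omega), h5]
    have hS := H60.AltPres.card_le_of_cosets H (x '' {i | i < k + 1}) hfinH
      (p '' {j | j < k + 2}) (Set.toFinite _) ⟨k + 1, by simp, hptop⟩ (by
        rintro _ ⟨i, hi, rfl⟩ _ ⟨j, hj, rfl⟩
        have hi' : i < k + 1 := hi
        have hj' : j < k + 2 := hj
        rcases Nat.lt_trichotomy j i with h5 | h5 | h5
        · exact ⟨j, hj, (hdn i j h5 (by omega)).symm⟩
        · subst h5
          refine ⟨j + 1, ?_, ?_⟩
          · show j + 1 < k + 2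
            omega
          · rw [← hprec j (by omega), hinv j (by omega)]
        · rcases Nat.lt_or_ge (i + 1) j with h6 | h6
          · refine ⟨j, hj, ?_⟩
            obtain ⟨j', rfl⟩ : ∃ j', j = j' + 1 := ⟨j - 1, by omega⟩
            exact (hup i j' (by omega) (by omega)).symm
          · have h7 : j = i + 1 := by omega
            subst h7
            exact ⟨i, by show i < k + 2; omega, (hprec i (by omega)).symm⟩)
    refine ⟨hS.1, hS.2.trans ?_⟩
    have h8 : (p '' {j | j < k + 2}).ncard ≤ k + 2 := by
      refine (Set.ncard_image_le (Set.toFinite _)).trans ?_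
      have h9 : ({j | j < k + 2} : Set ℕ) = ↑(Finset.range (k + 2)) := by ext; simp
      rw [h9, Set.ncard_coe_finset, Finset.card_range]
    calc (p '' {j | j < k + 2}).ncard * Nat.card H ≤ (k + 2) * (k + 1).factorial :=
          Nat.mul_le_mul h8 hcardH
      _ = (k + 1 + 1).factorial := by rw [Nat.factorial_succ (k + 1)]

theorem cox {G : Type*} [Group G] (n : ℕ) (x : Fin n → G) (h1 : ∀ i, x i * x i = 1)
    (h2 : ∀ i j : Fin n, i.val + 1 = j.val → (x i * x j) ^ 3 = 1)
    (h3 : ∀ i j : Fin n, i.val + 1 < j.val → x i * x j = x j * x i) :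
    ∃ f : Perm (Fin (n + 1)) →* G, ∀ i : Fin n, f (swap i.castSucc i.succ) = x i := by
  classical
  -- the elements of the product
  let s : Fin n → Perm (Fin (n + 1)) := fun i => swap i.castSucc i.succ
  let y : ℕ → G × Perm (Fin (n + 1)) := fun i => if hi : i < n then (x ⟨i, hi⟩, s ⟨i, hi⟩) else 1
  have hy : ∀ i (hi : i < n), y i = (x ⟨i, hi⟩, s ⟨i, hi⟩) := fun i hi => dif_pos hi
  have hbr : ∀ {A : Type _} [Group A] {a b : A}, a * a = 1 → b * b = 1 → (a * b) ^ 3 = 1 →
      a * b * a = b * a * b := by
    intro A _ a b ha hb hab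
    have h1 : (a * b * a) * (b * a * b) = 1 := by
      rw [← hab]; simp only [pow_succ, pow_zero, one_mul, mul_assoc]
    have h2 : (b * a * b) * (b * a * b) = 1 := by
      calc (b * a * b) * (b * a * b) = b * a * (b * b) * a * b := by simp only [mul_assoc]
        _ = b * (a * a) * b := by rw [hb]; simp only [mul_assoc, mul_one]
        _ = 1 := by rw [ha, mul_one, hb]
    calc a * b * a = (a * b * a) * ((b * a * b) * (b * a * b)) := by rw [h2, mul_one]
      _ = ((a * b * a) * (b * a * b)) * (b * a * b) := by simp only [mul_assoc]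
      _ = b * a * b := by rw [h1, one_mul]
  have hrel : Rel y n := by
    refine ⟨?_, ?_, ?_⟩
    · intro i hi
      rw [hy i hi]
      refine Prod.ext (h1 _) ?_
      exact swap_mul_self _ _
    · intro i hi
      rw [hy i (by omega), hy (i + 1) hi]
      refine Prod.ext (hbr (h1 _) (h1 _) (h2 _ _ rfl)) ?_
      show s _ * s _ * s _ = s _ * s _ * s _
      have e1 : (⟨i, by omega⟩ : Fin n).succ = (⟨i + 1, hi⟩ : Fin n).castSucc := rfl
      have hne1 : (⟨i, by omega⟩ : Fin n).castSucc ≠ (⟨i + 1, hi⟩ : Fin n).castSucc := by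
        intro h0; have := congrArg Fin.val h0; simp at this <;> omega
      have hne2 : (⟨i, by omega⟩ : Fin n).castSucc ≠ (⟨i + 1, hi⟩ : Fin n).succ := by
        intro h0; have := congrArg Fin.val h0; simp at this <;> omega
      have hne3 : (⟨i + 1, hi⟩ : Fin n).castSucc ≠ (⟨i + 1, hi⟩ : Fin n).succ := by
        intro h0; have := congrArg Fin.val h0; simp at this <;> omega
      simp only [s, e1]
      have key : ∀ {β : Type} [DecidableEq β] (a b c : β), a ≠ b → a ≠ c → b ≠ c →
          swap a b * swap b c * swap a b = swap b c * swap a b * swap b c := by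
        intro β _ a b c hab hac hbc
        ext z
        simp only [Perm.mul_apply]
        by_cases ha : z = a
        · subst ha
          simp [swap_apply_of_ne_of_ne, hab, hac, hbc, hab.symm, hac.symm, hbc.symm]
        · by_cases hb : z = b
          · subst hb
            simp [swap_apply_of_ne_of_ne, hab, hac, hbc, hab.symm, hac.symm, hbc.symm]
          · by_cases hc : z = c
            · subst hc
              simp [swap_apply_of_ne_of_ne, hab, hac, hbc, hab.symm, hac.symm, hbc.symm]
            · simp [swap_apply_of_ne_of_ne, ha, hb, hc]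
      exact key _ _ _ hne1 hne2 hne3
    · intro i j hij hj
      rw [hy i (by omega), hy j hj]
      refine Prod.ext (h3 _ _ hij) ?_
      show s _ * s _ = s _ * s _
      have hd : Perm.Disjoint (s ⟨i, by omega⟩) (s ⟨j, hj⟩) := by
        intro z
        by_cases h5 : z = (⟨i, by omega⟩ : Fin n).castSucc ∨ z = (⟨i, by omega⟩ : Fin n).succ
        · right
          apply swap_apply_of_ne_of_ne
          · intro h0
            rcases h5 with h5 | h5 <;> rw [h5] at h0 <;> have := congrArg Fin.val h0 <;>
              simp at this <;> omega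
          · intro h0
            rcases h5 with h5 | h5 <;> rw [h5] at h0 <;> have := congrArg Fin.val h0 <;>
              simp at this <;> omega
        · left
          rw [not_or] at h5
          exact swap_apply_of_ne_of_ne h5.1 h5.2
      exact hd.commute
  obtain ⟨hfin, hcard⟩ := bound y n hrel
  set C := Subgroup.closure (y '' {i | i < n}) with hC
  have hyC : ∀ i : Fin n, (x i, s i) ∈ C := by
    intro i
    have := Subgroup.subset_closure (k := y '' {i | i < n}) ⟨i.1, i.2, rfl⟩
    rw [hy i.1 i.2] at this
    exact this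
  let q : C →* Perm (Fin (n + 1)) := (MonoidHom.snd _ _).comp C.subtype
  have hq : Function.Surjective q := by
    have h5 : q.range = ⊤ := by
      rw [eq_top_iff]
      intro g _
      have h6 : g ∈ Submonoid.closure (Set.range fun i : Fin n => swap i.castSucc i.succ) := by
        rw [Equiv.Perm.mclosure_swap_castSucc_succ]; trivial
      have h7 : Submonoid.closure (Set.range fun i : Fin n => swap i.castSucc i.succ) ≤
          q.range.toSubmonoid := by
        rw [Submonoid.closure_le]
        rintro _ ⟨i, rfl⟩
        exact ⟨⟨(x i, s i), hyC i⟩, rfl⟩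
      exact h7 h6
    exact MonoidHom.range_eq_top.1 h5
  have hcardP : Nat.card (Perm (Fin (n + 1))) = (n + 1).factorial := by
    rw [Nat.card_eq_fintype_card, Fintype.card_perm, Fintype.card_fin]
  have hbij : Function.Bijective q := by
    refine (Nat.bijective_iff_surjective_and_card q).mpr ⟨hq, ?_⟩
    refine le_antisymm ?_ (Nat.card_le_card_of_surjective q hq)
    rw [hcardP]; exact hcard
  let e := MulEquiv.ofBijective q hbij
  refine ⟨((MonoidHom.fst _ _).comp C.subtype).comp e.symm.toMonoidHom, ?_⟩
  intro i
  have h5 : e.symm (swap i.castSucc i.succ) = ⟨(x i, s i), hyC i⟩ := by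
    rw [MulEquiv.symm_apply_eq]; rfl
  show (e.symm (swap i.castSucc i.succ)).1.1 = x i
  rw [h5]

theorem cox8 {G : Type*} [Group G] (x : Fin 7 → G) (h1 : ∀ i, x i * x i = 1)
    (h2 : ∀ i : Fin 6, (x i.castSucc * x i.succ) ^ 3 = 1)
    (h3 : ∀ i j : Fin 7, i.val + 1 < j.val → x i * x j = x j * x i) :
    ∃ f : Perm (Fin 8) →* G, ∀ i : Fin 7, f (swap i.castSucc i.succ) = x i := by
  refine cox 7 x h1 ?_ h3
  intro i j hij
  have hi : i.val < 6 := by have := j.2; omega
  have e1 : i = (⟨i.val, hi⟩ : Fin 6).castSucc := rfl
  have e2 : j = (⟨i.val, hi⟩ : Fin 6).succ := Fin.ext (by simp [← hij])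
  rw [e1, e2]
  exact h2 _

end H16.Cox
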