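import Mathlib
import Cfsg.Prelude.Def_Solvable

/-!
# S3322: reduction of the D-group hypothesis
-/

set_option autoImplicit false
set_option linter.unusedVariables false

open Subgroup

universe u

namespace H16.DG

variable {G : Type u} [Group G]

theorem inv_of_D (H A : Subgroup G) (hAH : A < H)
    (hD : ∀ x ∈ H, x ∉ A → x ^ 2 = 1) :
    ∀ x ∈ H, x ∉ A → ∀ a ∈ A, x * a * x⁻¹ = a⁻¹ := by
  intro x hx hxA a ha
  have h1 : x ^ 2 = 1 := hD x hx hxA
  have h2 : (x * a) ^ 2 = 1 := by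
    apply hD _ (H.mul_mem hx (hAH.le ha))
    intro h
    exact hxA ((A.mul_mem_cancel_right ha).1 h)
  have h3 : x⁻¹ = x := by
    rw [inv_eq_iff_mul_eq_one, ← sq]; exact h1
  rw [h3]
  rw [sq] at h2
  exact eq_inv_of_mul_eq_one_left (by rw [mul_assoc]; simpa [mul_assoc] using h2)

theorem red [Finite G] (H A : Subgroup G) (hAH : A < H)
    (hD : ∀ x ∈ H, x ∉ A → x ^ 2 = 1) :
    (∀ x ∈ H, x ^ 2 = 1) ∨
      (A.relIndex H = 2 ∧ ∀ x ∈ H, x ∉ A → ∀ a ∈ A, x * a * x⁻¹ = a⁻¹) := by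
  have hinv := inv_of_D H A hAH hD
  by_cases hE : ∀ x ∈ H, x ^ 2 = 1
  · exact Or.inl hE
  right
  refine ⟨?_, hinv⟩
  obtain ⟨x0, hx0, hx0A⟩ := SetLike.exists_of_lt hAH
  rw [Subgroup.relIndex_eq_two_iff]
  refine ⟨x0, hx0, ?_⟩
  intro b hb
  by_cases hbA : b ∈ A
  · right
    refine ⟨hbA, ?_⟩
    intro h
    exact hx0A ((A.mul_mem_cancel_left hbA).1 h)
  · left
    refine ⟨?_, hbA⟩
    by_contra hbx
    apply hE
    intro x hx
    by_cases hxA : x ∈ A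
    · have h1 := hinv _ (H.mul_mem hb hx0) hbx x hxA
      have h2 := hinv _ hx0 hx0A x hxA
      have h3 := hinv _ hb hbA x⁻¹ (A.inv_mem hxA)
      have h4 : b * x0 * x * (b * x0)⁻¹ = x := by
        calc b * x0 * x * (b * x0)⁻¹ = b * (x0 * x * x0⁻¹) * b⁻¹ := by group
          _ = x := by rw [h2, h3, inv_inv]
      rw [h4] at h1
      rw [sq]
      nth_rewrite 1 [h1]
      exact inv_mul_cancel x
    · exact hD x hx hxA

/-- `A` is commutative -/
theorem comm_of_D (H A : Subgroup G) (hAH : A < H)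
    (hD : ∀ x ∈ H, x ∉ A → x ^ 2 = 1) : ∀ a ∈ A, ∀ b ∈ A, a * b = b * a := by
  obtain ⟨x0, hx0, hx0A⟩ := SetLike.exists_of_lt hAH
  have hinv := inv_of_D H A hAH hD x0 hx0 hx0A
  intro a ha b hb
  have h1 := hinv _ (A.mul_mem ha hb)
  have h2 : x0 * (a * b) * x0⁻¹ = (x0 * a * x0⁻¹) * (x0 * b * x0⁻¹) := by group
  rw [h2, hinv a ha, hinv b hb] at h1
  have h3 := congrArg (·⁻¹) h1
  simp only [mul_inv_rev, inv_inv] at h3
  exact h3.symm

end H16.DG
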