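import Cfsg.Agent.Lib.H5.IndexTwo
import Cfsg.Agent.Lib.H16.DG1

set_option autoImplicit false
set_option linter.unusedVariables false

/-!
# S3322: Thompson transfer for `A < H`, `|H : A| = 2`
-/

open Subgroup

universe u

namespace H16.DG

variable {G : Type u} [Group G] [Finite G]

theorem sign_eq (M : Subgroup G) [Fintype (G ⧸ M)] [DecidableEq (G ⧸ M)] (m : ℕ) (hm : Odd m)
    (hM : M.index = 2 * m) (x : G) (hx : orderOf x = 2)
    (hnc : ∀ g : G, g * x * g⁻¹ ∉ M) :
    Equiv.Perm.sign (MulAction.toPerm x : Equiv.Perm (G ⧸ M)) = -1 := by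
  classical
  have hxx := H5.Dihedral.mul_self hx
  set σ : Equiv.Perm (G ⧸ M) := MulAction.toPerm x with hσ
  have hsq : σ ^ 2 = 1 := by
    ext c
    rw [pow_two]
    show x • x • c = c
    rw [smul_smul, hxx, one_smul]
  have hfix : Fintype.card (Function.fixedPoints σ) = 0 := by
    rw [Fintype.card_eq_zero_iff]
    refine ⟨fun c => ?_⟩
    obtain ⟨c, hc⟩ := c
    rw [Function.mem_fixedPoints, Function.IsFixedPt] at hc
    induction c using QuotientGroup.induction_on with
    | H g =>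
      have hc' : x • (QuotientGroup.mk g : G ⧸ M) = QuotientGroup.mk g := hc
      rw [MulAction.Quotient.smul_mk, eq_comm, QuotientGroup.eq] at hc'
      apply hnc g⁻¹
      simpa [mul_assoc] using hc'
  rw [Equiv.Perm.sign_of_pow_two_eq_one hsq, hfix]
  have h1 : Fintype.card (G ⧸ M) = 2 * m := by rw [← Nat.card_eq_fintype_card]; exact hM
  rw [h1, Nat.sub_zero, Nat.mul_div_cancel_left m (by norm_num)]
  exact hm.neg_one_pow

/-- if all elements of `H ∖ A` are involutions not conjugate into `A`, `|H : A| = 2`, `|G : H|` odd,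
there is a normal subgroup `G₀` of index two with `G₀ ∩ H = A` -/
theorem exists_index_two (H A : Subgroup G) (hAH : A ≤ H) (hrel : A.relIndex H = 2) (hodd : Odd H.index)
    (hx : ∀ x ∈ H, x ∉ A → orderOf x = 2 ∧ ∀ g : G, g * x * g⁻¹ ∉ A) :
    ∃ G0 : Subgroup G, G0.Normal ∧ G0.index = 2 ∧ A ≤ G0 ∧ ∀ x ∈ H, x ∉ A → x ∉ G0 := by
  classical
  have : Fintype (G ⧸ A) := Fintype.ofFinite _
  have hM : A.index = 2 * H.index := by
    rw [← Subgroup.relIndex_mul_index hAH, hrel]
  let f : G →* ℤˣ := (Equiv.Perm.sign (α := G ⧸ A)).comp (MulAction.toPermHom G (G ⧸ A))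
  have hf : ∀ x ∈ H, x ∉ A → f x = -1 := fun x hxH hxA =>
    sign_eq A H.index hodd hM x (hx x hxH hxA).1 (hx x hxH hxA).2
  obtain ⟨x0, hx0, hx0A⟩ : ∃ x0 ∈ H, x0 ∉ A := by
    by_contra hcon
    push Not at hcon
    have h1 : A.relIndex H = 1 := Subgroup.relIndex_eq_one.2 hcon
    omega
  refine ⟨f.ker, inferInstance, ?_, ?_, ?_⟩
  · have hsurj : Function.Surjective f := by
      intro u
      rcases Int.units_eq_one_or u with rfl | rfl
      · exact ⟨1, map_one f⟩
      · exact ⟨x0, hf x0 hx0 hx0A⟩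
    rw [index_ker, MonoidHom.range_eq_top.mpr hsurj, Subgroup.card_top]
    simp
  · intro a ha
    rw [MonoidHom.mem_ker]
    have h1 := hf (x0 * a) (H.mul_mem hx0 (hAH ha)) (fun h => hx0A ((A.mul_mem_cancel_right ha).1 h))
    rw [map_mul, hf x0 hx0 hx0A] at h1
    rcases Int.units_eq_one_or (f a) with h2 | h2
    · exact h2
    · rw [h2] at h1
      exact absurd h1 (by decide)
  · intro x hxH hxA hk
    rw [MonoidHom.mem_ker, hf x hxH hxA] at hk
    exact absurd hk (by decide)

end H16.DG
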