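import Cfsg.Agent.Lib.H16.Symp

set_option autoImplicit false

/-! Symplectic transvections: transitivity on hyperbolic pairs, generation of `Sp_2m`. -/

namespace H16.SympTransv

open Matrix Cfsg H16.Symp

variable {m : ℕ} {F : Type*} [Field F]

/-- transvection as an element of the symplectic group -/
def tv (w : Fin m ⊕ Fin m → F) (c : F) : symplecticGroup (Fin m) F :=
  ⟨sympTransvection m w c, sympTransvection_mem w c⟩

@[simp] theorem coe_tv (w : Fin m ⊕ Fin m → F) (c : F) :
    ((tv w c : symplecticGroup (Fin m) F) : Matrix (Fin m ⊕ Fin m) (Fin m ⊕ Fin m) F) = sympTransvection m w c := rfl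

/-- subgroup generated by the transvections in directions of `W` -/
def tvGroup (W : Submodule F (Fin m ⊕ Fin m → F)) : Subgroup (symplecticGroup (Fin m) F) :=
  Subgroup.closure {A | ∃ w ∈ W, ∃ c : F, A = tv w c}

theorem tv_mem {W : Submodule F (Fin m ⊕ Fin m → F)} {w : Fin m ⊕ Fin m → F} (hw : w ∈ W) (c : F) :
    tv w c ∈ tvGroup W := Subgroup.subset_closure ⟨w, hw, c, rfl⟩

theorem mulVec_mul_coe (A B : symplecticGroup (Fin m) F) (x : Fin m ⊕ Fin m → F) :
    ((A * B : symplecticGroup (Fin m) F) : Matrix (Fin m ⊕ Fin m) (Fin m ⊕ Fin m) F) *ᵥ x =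
      (A : Matrix (Fin m ⊕ Fin m) (Fin m ⊕ Fin m) F) *ᵥ ((B : Matrix (Fin m ⊕ Fin m) (Fin m ⊕ Fin m) F) *ᵥ x) := by
  rw [mulVec_mulVec]; rfl

theorem one_mulVec_coe (x : Fin m ⊕ Fin m → F) :
    ((1 : symplecticGroup (Fin m) F) : Matrix (Fin m ⊕ Fin m) (Fin m ⊕ Fin m) F) *ᵥ x = x := by
  change (1 : Matrix (Fin m ⊕ Fin m) (Fin m ⊕ Fin m) F) *ᵥ x = x
  rw [one_mulVec]

theorem inv_mulVec_coe (A : symplecticGroup (Fin m) F) {x y : Fin m ⊕ Fin m → F}
    (h : (A : Matrix (Fin m ⊕ Fin m) (Fin m ⊕ Fin m) F) *ᵥ x = y) :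
    ((A⁻¹ : symplecticGroup (Fin m) F) : Matrix (Fin m ⊕ Fin m) (Fin m ⊕ Fin m) F) *ᵥ y = x := by
  rw [← h, ← mulVec_mul_coe, inv_mul_cancel, one_mulVec_coe]

theorem tvGroup_fix {W : Submodule F (Fin m ⊕ Fin m → F)} {x : Fin m ⊕ Fin m → F}
    (hx : ∀ w ∈ W, sympForm m F x w = 0) {A : symplecticGroup (Fin m) F} (hA : A ∈ tvGroup W) :
    (A : Matrix (Fin m ⊕ Fin m) (Fin m ⊕ Fin m) F) *ᵥ x = x := by
  unfold tvGroup at hA
  induction hA using Subgroup.closure_induction with
  | mem A hA =>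
    obtain ⟨w, hw, c, rfl⟩ := hA
    rw [coe_tv, sympTransvection_mulVec, hx w hw]
    simp
  | one => exact one_mulVec_coe x
  | mul A B _ _ h1 h2 => rw [mulVec_mul_coe, h2, h1]
  | inv A _ h => exact inv_mulVec_coe A h

theorem tv_sub_apply {u u' : Fin m ⊕ Fin m → F} (h : sympForm m F u u' ≠ 0) :
    sympTransvection m (u - u') (sympForm m F u u')⁻¹ *ᵥ u = u' := by
  rw [sympTransvection_mulVec, sympForm_sub_right, sympForm_self, zero_sub, mul_neg, inv_mul_cancel₀ h]
  simp

/-- relative transitivity on nonzero vectors of a nondegenerate subspace `W` -/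
theorem exists_tvGroup_vec {W : Submodule F (Fin m ⊕ Fin m → F)}
    (hW : ∀ x ∈ W, x ≠ 0 → ∃ y ∈ W, sympForm m F x y ≠ 0) {u u' : Fin m ⊕ Fin m → F}
    (hu : u ∈ W) (hu' : u' ∈ W) (h0 : u ≠ 0) (h0' : u' ≠ 0) :
    ∃ A ∈ tvGroup W, (A : Matrix (Fin m ⊕ Fin m) (Fin m ⊕ Fin m) F) *ᵥ u = u' := by
  have key : ∀ {u u' : Fin m ⊕ Fin m → F}, u ∈ W → u' ∈ W → sympForm m F u u' ≠ 0 →
      ∃ A ∈ tvGroup W, (A : Matrix (Fin m ⊕ Fin m) (Fin m ⊕ Fin m) F) *ᵥ u = u' := by
    intro u u' hu hu' h
    exact ⟨tv (u - u') (sympForm m F u u')⁻¹, tv_mem (W.sub_mem hu hu') _, tv_sub_apply h⟩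
  obtain ⟨w, hw, h1, h2⟩ : ∃ w ∈ W, sympForm m F u w ≠ 0 ∧ sympForm m F u' w ≠ 0 := by
    obtain ⟨a, ha, hua⟩ := hW u hu h0
    obtain ⟨b, hb, hub⟩ := hW u' hu' h0'
    by_cases h3 : sympForm m F u' a = 0
    · by_cases h4 : sympForm m F u b = 0
      · refine ⟨a + b, W.add_mem ha hb, ?_, ?_⟩
        · rw [sympForm_add_right, h4, add_zero]; exact hua
        · rw [sympForm_add_right, h3, zero_add]; exact hub
      · exact ⟨b, hb, h4, hub⟩
    · exact ⟨a, ha, hua, h3⟩
  obtain ⟨A, hA, hAu⟩ := key hu hw h1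
  have h2' : sympForm m F w u' ≠ 0 := by
    rw [sympForm_swap]; exact neg_ne_zero.mpr h2
  obtain ⟨B, hB, hBw⟩ := key hw hu' h2'
  exact ⟨B * A, mul_mem hB hA, by rw [mulVec_mul_coe, hAu, hBw]⟩

/-- relative transitivity on hyperbolic pairs of a nondegenerate subspace `W` -/
theorem exists_tvGroup_pair {W : Submodule F (Fin m ⊕ Fin m → F)}
    (hW : ∀ x ∈ W, x ≠ 0 → ∃ y ∈ W, sympForm m F x y ≠ 0) {u v u' v' : Fin m ⊕ Fin m → F}
    (hu : u ∈ W) (hv : v ∈ W) (hu' : u' ∈ W) (hv' : v' ∈ W)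
    (h : sympForm m F u v = 1) (h' : sympForm m F u' v' = 1) :
    ∃ A ∈ tvGroup W, (A : Matrix (Fin m ⊕ Fin m) (Fin m ⊕ Fin m) F) *ᵥ u = u' ∧
      (A : Matrix (Fin m ⊕ Fin m) (Fin m ⊕ Fin m) F) *ᵥ v = v' := by
  have key : ∀ {u v v' : Fin m ⊕ Fin m → F}, v ∈ W → v' ∈ W → sympForm m F u v = 1 →
      sympForm m F u v' = 1 → sympForm m F v v' ≠ 0 →
      ∃ A ∈ tvGroup W, (A : Matrix (Fin m ⊕ Fin m) (Fin m ⊕ Fin m) F) *ᵥ u = u ∧
        (A : Matrix (Fin m ⊕ Fin m) (Fin m ⊕ Fin m) F) *ᵥ v = v' := by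
    intro u v v' hv hv' h1 h2 h3
    refine ⟨tv (v - v') (sympForm m F v v')⁻¹, tv_mem (W.sub_mem hv hv') _, ?_, tv_sub_apply h3⟩
    rw [coe_tv, sympTransvection_mulVec, sympForm_sub_right, h1, h2]
    simp
  have key2 : ∀ {u v v' : Fin m ⊕ Fin m → F}, u ∈ W → v ∈ W → v' ∈ W → sympForm m F u v = 1 →
      sympForm m F u v' = 1 →
      ∃ A ∈ tvGroup W, (A : Matrix (Fin m ⊕ Fin m) (Fin m ⊕ Fin m) F) *ᵥ u = u ∧
        (A : Matrix (Fin m ⊕ Fin m) (Fin m ⊕ Fin m) F) *ᵥ v = v' := by
    intro u v v' hu hv hv' h1 h2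
    by_cases h3 : sympForm m F v v' = 0
    · have e1 : sympForm m F u (v + u) = 1 := by rw [sympForm_add_right, h1, sympForm_self, add_zero]
      have e2 : sympForm m F v (v + u) ≠ 0 := by
        rw [sympForm_add_right, sympForm_self, zero_add, sympForm_swap, h1]
        simp
      have e3 : sympForm m F (v + u) v' ≠ 0 := by
        rw [sympForm_add_left, h3, h2]
        simp
      obtain ⟨A, hA, hAu, hAv⟩ := key hv (W.add_mem hv hu) h1 e1 e2
      obtain ⟨B, hB, hBu, hBv⟩ := key (W.add_mem hv hu) hv' e1 h2 e3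
      exact ⟨B * A, mul_mem hB hA, by rw [mulVec_mul_coe, hAu, hBu], by rw [mulVec_mul_coe, hAv, hBv]⟩
    · exact key hv hv' h1 h2 h3
  have h0 : u ≠ 0 := by
    rintro rfl
    rw [sympForm_zero_left] at h
    exact zero_ne_one h
  have h0' : u' ≠ 0 := by
    rintro rfl
    rw [sympForm_zero_left] at h'
    exact zero_ne_one h'
  obtain ⟨A, hA, hAu⟩ := exists_tvGroup_vec hW hu hu' h0 h0'
  have hmem : ∀ {A : symplecticGroup (Fin m) F}, A ∈ tvGroup W → ∀ x ∈ W,
      (A : Matrix (Fin m ⊕ Fin m) (Fin m ⊕ Fin m) F) *ᵥ x ∈ W := by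
    intro A hA
    unfold tvGroup at hA
    induction hA using Subgroup.closure_induction'' with
    | mem A hA =>
      obtain ⟨w, hw, c, rfl⟩ := hA
      intro x hx
      rw [coe_tv, sympTransvection_mulVec]
      exact W.add_mem hx (W.smul_mem _ hw)
    | inv_mem A hA =>
      obtain ⟨w, hw, c, rfl⟩ := hA
      have : (tv w c)⁻¹ = tv w (-c) := by
        rw [inv_eq_iff_mul_eq_one]
        apply Subtype.ext
        change sympTransvection m w c * sympTransvection m w (-c) = 1
        rw [sympTransvection_mul]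
        simp [sympTransvection]
      intro x hx
      rw [this, coe_tv, sympTransvection_mulVec]
      exact W.add_mem hx (W.smul_mem _ hw)
    | one => intro x hx; rw [one_mulVec_coe]; exact hx
    | mul A B _ _ h1 h2 => intro x hx; rw [mulVec_mul_coe]; exact h1 _ (h2 _ hx)
  have hA1 : sympForm m F u' ((A : Matrix (Fin m ⊕ Fin m) (Fin m ⊕ Fin m) F) *ᵥ v) = 1 := by
    rw [← hAu, (mem_symplecticGroup_iff _).mp A.2, h]
  obtain ⟨B, hB, hBu, hBv⟩ := key2 hu' (hmem hA v hv) hv' hA1 h'
  exact ⟨B * A, mul_mem hB hA, by rw [mulVec_mul_coe, hAu, hBu], by rw [mulVec_mul_coe, hBv]⟩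

theorem tvGroup_top_eq : tvGroup (⊤ : Submodule F (Fin m ⊕ Fin m → F)) =
    Subgroup.closure {A : Matrix.symplecticGroup (Fin m) F | ∃ (w : Fin m ⊕ Fin m → F) (c : F),
      (A : Matrix (Fin m ⊕ Fin m) (Fin m ⊕ Fin m) F) = Cfsg.sympTransvection m w c} := by
  unfold tvGroup
  congr 1
  ext A
  constructor
  · rintro ⟨w, -, c, rfl⟩
    exact ⟨w, c, rfl⟩
  · rintro ⟨w, c, h⟩
    exact ⟨w, trivial, c, Subtype.ext h⟩

theorem tvGroup_mono {W W' : Submodule F (Fin m ⊕ Fin m → F)} (h : W ≤ W') : tvGroup W ≤ tvGroup W' := by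
  unfold tvGroup
  apply Subgroup.closure_mono
  rintro A ⟨w, hw, c, rfl⟩
  exact ⟨w, h hw, c, rfl⟩

theorem top_nondeg : ∀ x ∈ (⊤ : Submodule F (Fin m ⊕ Fin m → F)), x ≠ 0 →
    ∃ y ∈ (⊤ : Submodule F (Fin m ⊕ Fin m → F)), sympForm m F x y ≠ 0 := by
  intro x _ hx
  by_contra h
  push Not at h
  exact hx (eq_zero_of_forall_sympForm_right fun v => h v trivial)

/-- vectors supported on the first `k` hyperbolic pairs -/
def lowSpace (m : ℕ) (F : Type*) [Field F] (k : ℕ) : Submodule F (Fin m ⊕ Fin m → F) where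
  carrier := {x | ∀ i : Fin m, k ≤ (i : ℕ) → x (Sum.inl i) = 0 ∧ x (Sum.inr i) = 0}
  add_mem' := by
    intro a b ha hb i hi
    simp [ha i hi, hb i hi]
  zero_mem' := by
    intro i hi
    simp
  smul_mem' := by
    intro c a ha i hi
    simp [ha i hi]

theorem mem_lowSpace {k : ℕ} {x : Fin m ⊕ Fin m → F} :
    x ∈ lowSpace m F k ↔ ∀ i : Fin m, k ≤ (i : ℕ) → x (Sum.inl i) = 0 ∧ x (Sum.inr i) = 0 := Iff.rfl

theorem lowSpace_nondeg (k : ℕ) : ∀ x ∈ lowSpace m F k, x ≠ 0 →
    ∃ y ∈ lowSpace m F k, sympForm m F x y ≠ 0 := by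
  intro x hx h0
  by_contra h
  push Not at h
  apply h0
  ext (i | i)
  · by_cases hi : k ≤ (i : ℕ)
    · exact (hx i hi).1
    · have h1 := h (Pi.single (Sum.inr i) 1) (by
        intro j hj
        have hij : i ≠ j := by rintro rfl; exact hi hj
        constructor
        · simp
        · rw [Pi.single_eq_of_ne]
          simpa using Ne.symm hij)
      rw [sympForm_single_inr] at h1
      simpa using h1
  · by_cases hi : k ≤ (i : ℕ)
    · exact (hx i hi).2
    · have h1 := h (Pi.single (Sum.inl i) 1) (by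
        intro j hj
        have hij : i ≠ j := by rintro rfl; exact hi hj
        constructor
        · rw [Pi.single_eq_of_ne]
          simpa using Ne.symm hij
        · simp)
      rw [sympForm_single_inl] at h1
      simpa using h1

theorem mat_ext_single {n : Type*} [Fintype n] [DecidableEq n] {A B : Matrix n n F}
    (h : ∀ j, A *ᵥ (Pi.single j 1) = B *ᵥ (Pi.single j 1)) : A = B := by
  ext i j
  have := congrFun (h j) i
  simpa using this

/-- the symplectic transvections generate `Sp_2m(F)` -/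
theorem tvGroup_eq_top : tvGroup (⊤ : Submodule F (Fin m ⊕ Fin m → F)) = ⊤ := by
  rw [eq_top_iff]
  have main : ∀ k : ℕ, ∀ A : symplecticGroup (Fin m) F,
      (∀ i : Fin m, k ≤ (i : ℕ) →
        (A : Matrix (Fin m ⊕ Fin m) (Fin m ⊕ Fin m) F) *ᵥ (Pi.single (Sum.inl i) 1) = Pi.single (Sum.inl i) 1 ∧
        (A : Matrix (Fin m ⊕ Fin m) (Fin m ⊕ Fin m) F) *ᵥ (Pi.single (Sum.inr i) 1) = Pi.single (Sum.inr i) 1) →
      A ∈ tvGroup (⊤ : Submodule F (Fin m ⊕ Fin m → F)) := by
    intro k
    induction k with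
    | zero =>
      intro A hA
      have : A = 1 := by
        apply Subtype.ext
        change (A : Matrix (Fin m ⊕ Fin m) (Fin m ⊕ Fin m) F) = 1
        apply mat_ext_single
        rintro (j | j)
        · rw [(hA j (Nat.zero_le _)).1, one_mulVec]
        · rw [(hA j (Nat.zero_le _)).2, one_mulVec]
      rw [this]
      exact one_mem _
    | succ k ih =>
      intro A hA
      by_cases hk : k < m
      · -- apply relative transitivity in lowSpace (k+1)
        set i0 : Fin m := ⟨k, hk⟩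
        have hform := (mem_symplecticGroup_iff _).mp A.2
        have hmemA : ∀ x : Fin m ⊕ Fin m → F, x ∈ lowSpace m F (k + 1) →
            (A : Matrix (Fin m ⊕ Fin m) (Fin m ⊕ Fin m) F) *ᵥ x ∈ lowSpace m F (k + 1) := by
          intro x hx i hi
          have h1 := hform x (Pi.single (Sum.inl i) 1)
          have h2 := hform x (Pi.single (Sum.inr i) 1)
          rw [(hA i hi).1, sympForm_single_inl, sympForm_single_inl, (hx i hi).2] at h1
          rw [(hA i hi).2, sympForm_single_inr, sympForm_single_inr, (hx i hi).1] at h2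
          exact ⟨by simpa using h2, h1⟩
        have hinl : (Pi.single (Sum.inl i0) 1 : Fin m ⊕ Fin m → F) ∈ lowSpace m F (k + 1) := by
          intro j hj
          have hij : i0 ≠ j := by
            intro h
            rw [← h] at hj
            simp [i0] at hj
          constructor
          · rw [Pi.single_eq_of_ne]
            simpa using Ne.symm hij
          · simp
        have hinr : (Pi.single (Sum.inr i0) 1 : Fin m ⊕ Fin m → F) ∈ lowSpace m F (k + 1) := by
          intro j hj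
          have hij : i0 ≠ j := by
            intro h
            rw [← h] at hj
            simp [i0] at hj
          constructor
          · simp
          · rw [Pi.single_eq_of_ne]
            simpa using Ne.symm hij
        have h1 : sympForm m F (Pi.single (Sum.inr i0) 1 : Fin m ⊕ Fin m → F) (Pi.single (Sum.inl i0) 1) = 1 := by
          rw [sympForm_single_inl]; simp
        obtain ⟨B, hB, hB1, hB2⟩ := exists_tvGroup_pair (lowSpace_nondeg (m := m) (F := F) (k + 1)) hinr hinl
          (hmemA _ hinr) (hmemA _ hinl) h1 ((hform _ _).trans h1)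
        have hfin : B⁻¹ * A ∈ tvGroup (⊤ : Submodule F (Fin m ⊕ Fin m → F)) := by
          apply ih
          intro i hi
          by_cases hik : i = i0
          · subst hik
            constructor
            · rw [mulVec_mul_coe, ← hB2, ← mulVec_mul_coe, inv_mul_cancel, one_mulVec_coe]
            · rw [mulVec_mul_coe, ← hB1, ← mulVec_mul_coe, inv_mul_cancel, one_mulVec_coe]
          · have hi' : k + 1 ≤ (i : ℕ) := by
              rcases Nat.lt_or_ge k (i : ℕ) with h | h
              · exact h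
              · exfalso
                apply hik
                apply Fin.ext
                change (i : ℕ) = k
                omega
            constructor
            · rw [mulVec_mul_coe, (hA i hi').1]
              apply inv_mulVec_coe
              apply tvGroup_fix _ hB
              intro w hw
              rw [sympForm_swap, sympForm_single_inl, (hw i hi').2, neg_zero]
            · rw [mulVec_mul_coe, (hA i hi').2]
              apply inv_mulVec_coe
              apply tvGroup_fix _ hB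
              intro w hw
              rw [sympForm_swap, sympForm_single_inr, (hw i hi').1, neg_zero, neg_zero]
        have : A = B * (B⁻¹ * A) := by group
        rw [this]
        exact mul_mem (tvGroup_mono le_top hB) hfin
      · apply ih
        intro i hi
        exact absurd (lt_of_le_of_lt hi i.2) hk
  intro A _
  apply main m A
  intro i hi
  exact absurd i.2 (not_lt.mpr hi)

end H16.SympTransv
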